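import Cfsg.Agent.H24.TwoMaxClass

/-!
A two-group with a self-centralising four-group is dihedral or semidihedral.
-/

set_option autoImplicit false

namespace Cfsg.Agent.H91.ZN

open Subgroup

universe u

theorem quaternion_involution {m : ℕ} [NeZero m] {x y : QuaternionGroup m} (hx : x * x = 1) (hx1 : x ≠ 1)
    (hy : y * y = 1) (hy1 : y ≠ 1) : x = y := by
  have key : ∀ w : QuaternionGroup m, w * w = 1 → w ≠ 1 →
      ∃ i : ZMod (2 * m), w = .a i ∧ i + i = 0 ∧ i ≠ 0 := by
    rintro (i | i) h h1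
    · refine ⟨i, rfl, ?_, fun e => h1 (by rw [e]; rfl)⟩
      rw [QuaternionGroup.a_mul_a, ← QuaternionGroup.a_zero] at h
      exact QuaternionGroup.a.inj h
    · exfalso
      rw [QuaternionGroup.xa_mul_xa, ← QuaternionGroup.a_zero, QuaternionGroup.a.injEq] at h
      have h2 : ((m : ℕ) : ZMod (2 * m)) = 0 := by simpa using h
      rw [ZMod.natCast_eq_zero_iff] at h2
      have := Nat.le_of_dvd (NeZero.pos m) h2
      have := NeZero.pos m
      omega
  obtain ⟨i, rfl, hi, hi1⟩ := key x hx hx1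
  obtain ⟨j, rfl, hj, hj1⟩ := key y hy hy1
  have hval : ∀ l : ZMod (2 * m), l + l = 0 → l ≠ 0 → l.val = m := by
    intro l hl hl1
    have h1 : (l + l).val = 0 := by rw [hl, ZMod.val_zero]
    rw [ZMod.val_add] at h1
    have h2 := ZMod.val_lt l
    have h3 : l.val ≠ 0 := fun e => hl1 ((ZMod.val_eq_zero l).mp e)
    obtain ⟨c, hc⟩ := Nat.dvd_of_mod_eq_zero h1
    have hc2 : c < 2 := by
      by_contra hc2
      push Not at hc2
      have : 2 * m * 2 ≤ 2 * m * c := Nat.mul_le_mul_left _ hc2
      omega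
    interval_cases c <;> omega
  exact congrArg _ (ZMod.val_injective _ ((hval i hi hi1).trans (hval j hj hj1).symm))

/-- A two-group of order at least eight with a self-centralising four-group. -/
theorem dihedral_or_quasiDihedral {P : Type u} [Group P] [Finite P] (hP : IsPGroup 2 P) (h8 : 8 ≤ Nat.card P)
    (A : Subgroup P) (hA : Nat.card A = 4) (hA2 : ∀ a ∈ A, a * a = 1)
    (hC : centralizer (A : Set P) ≤ A) :
    (∃ n : ℕ, 2 ≤ n ∧ Nonempty (P ≃* DihedralGroup n)) ∨ Cfsg.IsQuasiDihedral P := by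
  haveI : Fact (Nat.Prime 2) := ⟨Nat.prime_two⟩
  obtain ⟨k, hk⟩ := IsPGroup.iff_card.mp hP
  have hk3 : 3 ≤ k := by
    by_contra h
    have h1 : 2 ^ k ≤ 2 ^ 2 := Nat.pow_le_pow_right (by norm_num) (by omega)
    omega
  have hab : A ≤ centralizer (A : Set P) := by
    intro a ha
    refine mem_centralizer_iff.mpr fun b hb => ?_
    have h1 := hA2 _ (mul_mem hb ha)
    have e : b * a = a⁻¹ * b⁻¹ := by rw [← mul_inv_rev]; exact eq_inv_of_mul_eq_one_left h1
    rw [e, inv_eq_of_mul_eq_one_right (hA2 _ ha), inv_eq_of_mul_eq_one_right (hA2 _ hb)]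
  rcases H24.two_group_max_class hk3 hk (fun {_} =>
      H24.class_eq_of_self_centralizing P 2 k hk A (by rw [hA]; norm_num) (le_antisymm hC hab)) with
    ⟨m, ⟨e⟩⟩ | ⟨m, ⟨e⟩⟩ | hqd
  · refine Or.inl ⟨m, ?_, ⟨e⟩⟩
    have h := Nat.card_congr e.toEquiv
    rw [DihedralGroup.nat_card] at h
    omega
  · exfalso
    have h := Nat.card_congr e.toEquiv
    have hm : m ≠ 0 := by
      rintro rfl
      haveI : Finite (QuaternionGroup 0) := Finite.of_equiv P e.toEquiv
      haveI : Infinite (ZMod (2 * 0)) := inferInstanceAs (Infinite ℤ)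
      exact (Finite.of_injective (QuaternionGroup.a : ZMod (2 * 0) → QuaternionGroup 0)
        fun i j hij => QuaternionGroup.a.inj hij).false
    haveI : NeZero m := ⟨hm⟩
    haveI : Fintype ↥A := Fintype.ofFinite _
    have h2 : 2 < Fintype.card ↥A := by rw [← Nat.card_eq_fintype_card, hA]; norm_num
    obtain ⟨a, b, c, hab', hac, hbc⟩ := Fintype.two_lt_card_iff.mp h2
    have hall : ∀ x y : ↥A, x ≠ 1 → y ≠ 1 → x = y := fun x y hx hy => Subtype.ext (e.injective
      (quaternion_involution (by rw [← map_mul, hA2 _ x.2, map_one])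
        (fun h1 => hx (Subtype.ext (e.injective (h1.trans (map_one e).symm))))
        (by rw [← map_mul, hA2 _ y.2, map_one])
        (fun h1 => hy (Subtype.ext (e.injective (h1.trans (map_one e).symm))))))
    by_cases ha : a = 1
    · exact hbc (hall b c (fun hb => hab' (ha.trans hb.symm)) fun hc => hac (ha.trans hc.symm))
    · by_cases hb : b = 1
      · exact hac (hall a c ha fun hc => hbc (hb.trans hc.symm))
      · exact hab' (hall a b ha hb)
  · exact Or.inr hqd

end Cfsg.Agent.H91.ZN
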