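import Cfsg.Agent.H74.JBridge
import Cfsg.Agent.H74.JSecondBasic
import Cfsg.Agent.H91.ZN.Model
import Cfsg.Agent.H91.ZN.MaxClass

/-!
Coordinates on a maximal two-local subgroup isomorphic to `S₄` or to `S₄ × C₂`.
-/

set_option autoImplicit false
set_option linter.style.haveILetI false

namespace Cfsg.Agent.H91.ZN

open Subgroup Cfsg
open scoped Pointwise

variable {Y : Type*} [Group Y] [Finite Y]

/-- A maximal two-local subgroup is the normalizer of any nontrivial normal two-subgroup of it. -/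
theorem normalizer_le_of_max {P V : Subgroup Y} (hP : IsMaximalTwoLocal P) (hV : IsPGroup 2 V) (hV1 : V ≠ ⊥)
    (hPV : P ≤ normalizer (V : Set Y)) : normalizer (V : Set Y) ≤ P :=
  (hP.2 _ ⟨V, hV, hV1, rfl⟩ hPV).le

theorem zpowers_isPGroup {x : Y} (hx : x * x = 1) : IsPGroup 2 (zpowers x) := by
  intro g
  refine ⟨1, ?_⟩
  obtain ⟨i, hi⟩ := mem_zpowers_iff.mp g.2
  apply Subtype.ext
  rw [Subgroup.coe_pow, pow_one, pow_two, ← hi, ← zpow_add, ← two_mul, zpow_mul, zpow_two, hx, one_zpow]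
  rfl

theorem centralizer_le_normalizer_zpowers {x : Y} :
    centralizer ({x} : Set Y) ≤ normalizer (zpowers x : Set Y) := by
  rw [← centralizer_closure, ← zpowers_eq_closure]
  exact centralizer_le_normalizer _

/-- The coordinates given by a parabolic isomorphic to `S₄ × C₂`. -/
structure Frame (ι : D8C2 →* Y) (T P : Subgroup Y) : Prop where
  inj : Function.Injective ι
  range : ι.range = T
  cent : ∀ y, y ∈ P ↔ y * ι dT = ι dT * y
  fuse : ∃ k ∈ P, k * ι dZ * k⁻¹ = ι dW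
  sq : ∀ y ∈ P, (y * y) * (y * y) = 1 → y * y ≠ 1 → ∃ k ∈ P, k * ι dZ * k⁻¹ = y * y
  stab : ∀ g ∈ P, ∀ x, x ∈ T → x * ι dW = ι dW * x →
    g * x * g⁻¹ ∈ T ∧ g * x * g⁻¹ * ι dW = ι dW * (g * x * g⁻¹)
  norm : ∀ g, (∀ x, x ∈ T → x * ι dW = ι dW * x → g * x * g⁻¹ ∈ T ∧ g * x * g⁻¹ * ι dW = ι dW * (g * x * g⁻¹)) →
    g ∈ P

theorem card_le_of_two_pow_dvd {n : ℕ} (h : ∃ a, n = 2 ^ a) (hd : n ∣ 48) : n ≤ 16 := by
  obtain ⟨a, rfl⟩ := h
  by_contra hc
  push Not at hc
  have h5 : 2 ^ 5 ∣ 2 ^ a := pow_dvd_pow 2 (by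
    by_contra h
    have : 2 ^ a ≤ 2 ^ 4 := Nat.pow_le_pow_right (by norm_num) (by omega)
    omega)
  exact absurd (h5.trans hd) (by decide)

theorem exists_frame {T P : Subgroup Y} (hP : IsMaximalTwoLocal P) (hT : IsSylowTwoIn T P)
    (e : ↥P ≃* S4C2) : ∃ ι : D8C2 →* Y, Frame ι T P := by
  haveI : Fact (Nat.Prime 2) := ⟨Nat.prime_two⟩
  let f : S4C2 →* Y := P.subtype.comp e.symm.toMonoidHom
  have hf : Function.Injective f := P.subtype_injective.comp e.symm.injective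
  have hfP : ∀ s, f s ∈ P := fun s => (e.symm s).2
  have hfs : ∀ y ∈ P, ∃ s, f s = y := fun y hy => ⟨e ⟨y, hy⟩, by simp [f]⟩
  set ι0 := f.comp dEmb
  have hι0 : Function.Injective ι0 := hf.comp dEmb_inj
  have hr0 : ι0.range ≤ P := by rintro _ ⟨x, rfl⟩; exact hfP _
  have hcD : Nat.card ↥ι0.range = 16 := by
    rw [← Nat.card_congr (MonoidHom.ofInjective hι0).toEquiv, Nat.card_prod, DihedralGroup.nat_card]
    simp
  have hp0 : IsPGroup 2 ↥ι0.range := IsPGroup.of_card (n := 4) (by rw [hcD]; norm_num)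
  obtain ⟨l, hl, hle⟩ := H74.JB.exists_le_conj hT hp0 hr0
  have hTP : Nat.card T ∣ Nat.card P := card_dvd_of_le hT.1
  have hcP : Nat.card P = 48 := by
    rw [Nat.card_congr e.toEquiv, Nat.card_prod, Nat.card_eq_fintype_card, Fintype.card_perm]
    simp [Nat.factorial]
  have hTc : Nat.card T ≤ 16 := card_le_of_two_pow_dvd (IsPGroup.iff_card.mp hT.2.1) (hcP ▸ hTP)
  have heq : ι0.range = T.map (MulAut.conj l).toMonoidHom := eq_of_le_of_card_ge hle (by
    rw [hcD]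
    exact (card_map_of_injective (MulAut.conj l).injective).trans_le hTc)
  obtain ⟨l', hl'⟩ := hfs l hl
  let g : S4C2 →* Y := f.comp (MulAut.conj l'⁻¹).toMonoidHom
  have hg : Function.Injective g := hf.comp (MulAut.conj l'⁻¹).injective
  have hgP : ∀ s, g s ∈ P := fun s => hfP _
  have hgs : ∀ y ∈ P, ∃ s, g s = y := fun y hy => by
    obtain ⟨s, rfl⟩ := hfs y hy
    exact ⟨(MulAut.conj l'⁻¹).symm s, congrArg f ((MulAut.conj l'⁻¹).apply_symm_apply s)⟩
  set ι := g.comp dEmb with hι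
  have hgl : ∀ x, ι x = l⁻¹ * ι0 x * l := fun x => by
    simp [hι, g, ι0, ← hl']
  have hrange : ι.range = T := by
    apply le_antisymm
    · rintro _ ⟨x, rfl⟩
      obtain ⟨t, ht, htx⟩ := heq.le ⟨x, rfl⟩
      rw [hgl, ← htx]
      simpa [mul_assoc] using ht
    · intro t ht
      obtain ⟨x, hx⟩ := heq.ge (mem_map_of_mem _ ht)
      refine ⟨x, ?_⟩
      rw [hgl, hx]
      simp [mul_assoc]
  have hcT : ∀ y ∈ P, y * ι dT = ι dT * y := fun y hy => by
    obtain ⟨s, rfl⟩ := hgs y hy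
    show g s * g (dEmb dT) = g (dEmb dT) * g s
    rw [← map_mul, ← map_mul, dEmb_T, sT_center]
  have hinj : Function.Injective ι := hg.comp dEmb_inj
  have ht1 : ι dT ≠ 1 := fun h => dT_ne_one (hinj (h.trans (map_one ι).symm))
  have ht2 : ι dT * ι dT = 1 := by rw [← map_mul, dT_sq, map_one]
  have hcle : centralizer ({ι dT} : Set Y) ≤ P := by
    refine centralizer_le_normalizer_zpowers.trans (normalizer_le_of_max hP (zpowers_isPGroup ht2)
      (fun h => ht1 (zpowers_eq_bot.mp h)) ?_)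
    exact fun y hy => centralizer_le_normalizer_zpowers
      (mem_centralizer_singleton_iff.mpr (hcT y hy))
  set E := vBig.map g
  have hE : ∀ v, v ∈ E ↔ v ∈ T ∧ v * ι dW = ι dW * v := by
    intro v
    constructor
    · rintro ⟨s, hs, rfl⟩
      obtain ⟨x, rfl⟩ := vBig_range s hs.1
      refine ⟨hrange ▸ ⟨x, rfl⟩, ?_⟩
      show ι x * ι dW = ι dW * ι x
      rw [← map_mul, ← map_mul, inV_cent x ((inV_mem x).mpr hs.1)]
    · rintro ⟨hv, hc⟩
      obtain ⟨x, rfl⟩ := hrange.ge hv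
      refine ⟨dEmb x, ⟨(inV_mem x).mp (dW_cent x ?_), mem_top _⟩, rfl⟩
      exact hinj (by rw [map_mul, map_mul, hc])
  have hEn : P ≤ normalizer (E : Set Y) := by
    intro p hp
    refine H74.mem_normalizer_of_conj_mem fun v hv => ?_
    obtain ⟨s, rfl⟩ := hgs p hp
    obtain ⟨w, hw, rfl⟩ := hv
    exact ⟨s * w * s⁻¹, ⟨vGroup_conj s.1 w.1 hw.1, mem_top _⟩, by simp⟩
  refine ⟨ι, hinj, hrange, fun y => ⟨hcT y, fun h => hcle (mem_centralizer_singleton_iff.mpr h)⟩, ?_, ?_,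
    fun p hp x hx hxc => (hE _).mp ((mem_normalizer_iff.mp (hEn hp) x).mp ((hE x).mpr ⟨hx, hxc⟩)), ?_⟩
  · obtain ⟨k, hk⟩ := W_conj
    exact ⟨g k, hgP k, by show g k * g (dEmb dZ) * (g k)⁻¹ = g (dEmb dW); rw [← map_inv, ← map_mul, ← map_mul, hk]⟩
  · intro y hy h1 h2
    obtain ⟨s, rfl⟩ := hgs y hy
    rw [← map_mul, ← map_mul, map_eq_one_iff g hg] at h1
    rw [← map_mul, Ne, map_eq_one_iff g hg] at h2
    obtain ⟨k, hk⟩ := sq_conj s h1 h2
    exact ⟨g k, hgP k, by show g k * g (dEmb dZ) * (g k)⁻¹ = _; rw [← map_mul g s s, ← map_inv, ← map_mul, ← map_mul, hk]⟩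
  · intro y hy
    have hEp : IsPGroup 2 E := hT.2.1.to_le fun v hv => ((hE v).mp hv).1
    have hE1 : E ≠ ⊥ := fun h => ht1 (by
      have : ι dT ∈ E := (hE _).mpr ⟨hrange ▸ ⟨dT, rfl⟩, by
        rw [← map_mul, ← map_mul]; exact congrArg ι dT_dW⟩
      rw [h, mem_bot] at this
      exact this)
    refine normalizer_le_of_max hP hEp hE1 hEn (H74.mem_normalizer_of_conj_mem fun v hv => ?_)
    obtain ⟨h1, h2⟩ := (hE v).mp hv
    exact (hE _).mpr (hy v h1 h2)

/-- A parabolic isomorphic to `S₄` makes the Sylow subgroup dihedral or semidihedral. -/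
theorem sylow_of_symFour {T P : Subgroup Y} (hP : IsMaximalTwoLocal P) (hT : IsSylowTwoIn T P)
    (e : ↥P ≃* Equiv.Perm (Fin 4)) (S : Sylow 2 Y) (hTS : T ≤ (S : Subgroup Y)) :
    Nat.card ↥(omegaCenterOf (S : Subgroup Y)) ≤ 2 ∧
      ((∃ n : ℕ, 2 ≤ n ∧ Nonempty (↥(S : Subgroup Y) ≃* DihedralGroup n)) ∨
        IsQuasiDihedral ↥(S : Subgroup Y)) := by
  haveI : Fact (Nat.Prime 2) := ⟨Nat.prime_two⟩
  let f : Equiv.Perm (Fin 4) →* Y := P.subtype.comp e.symm.toMonoidHom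
  have hf : Function.Injective f := P.subtype_injective.comp e.symm.injective
  have hfP : ∀ s, f s ∈ P := fun s => (e.symm s).2
  have hfs : ∀ y ∈ P, ∃ s, f s = y := fun y hy => ⟨e ⟨y, hy⟩, by simp [f]⟩
  set V := vGroup.map f
  have hV2 : ∀ v ∈ V, v * v = 1 := by
    rintro _ ⟨p, hp, rfl⟩
    rw [← map_mul, vGroup_sq p hp, map_one]
  have hVp : IsPGroup 2 V := fun v => ⟨1, Subtype.ext (by simpa [pow_two] using hV2 v v.2)⟩
  have hVc : Nat.card V = 4 := by
    rw [card_map_of_injective hf]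
    exact vGroup_card
  have hPV : P ≤ normalizer (V : Set Y) := by
    intro p hp
    refine H74.mem_normalizer_of_conj_mem fun v hv => ?_
    obtain ⟨s, rfl⟩ := hfs p hp
    obtain ⟨w, hw, rfl⟩ := hv
    exact ⟨s * w * s⁻¹, vGroup_conj s w hw, by simp⟩
  have hVP : V ≤ P := by rintro _ ⟨p, -, rfl⟩; exact hfP p
  have hV1 : V ≠ ⊥ := fun h => by rw [h, card_bot] at hVc; omega
  have hcent : centralizer (V : Set Y) ≤ V := by
    intro y hy
    obtain ⟨s, rfl⟩ := hfs y (normalizer_le_of_max hP hVp hV1 hPV (centralizer_le_normalizer _ hy))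
    refine ⟨s, vGroup_cent s fun p hp => hf ?_, rfl⟩
    rw [map_mul, map_mul]
    exact mem_centralizer_iff.mp hy _ ⟨p, hp, rfl⟩
  have hVT : V ≤ T := by
    obtain ⟨l, hl, hle⟩ := H74.JB.exists_le_conj hT hVp hVP
    intro v hv
    have h1 : l * v * l⁻¹ ∈ V := (mem_normalizer_iff.mp (hPV hl) v).mp hv
    obtain ⟨t, ht, htv⟩ := hle h1
    have h2 : t = v := mul_left_cancel (mul_right_cancel (show l * t * l⁻¹ = l * v * l⁻¹ from htv))
    exact h2 ▸ ht
  have hVS : V ≤ (S : Subgroup Y) := hVT.trans hTS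
  have h8 : 8 ≤ Nat.card ↥(S : Subgroup Y) := by
    refine le_trans ?_ (card_le_of_le hTS)
    have h1 : Nat.card T * T.relIndex P = 24 := by
      have h2 := Subgroup.card_mul_index (T.subgroupOf P)
      rw [Nat.card_congr (subgroupOfEquivOfLe hT.1).toEquiv] at h2
      rw [relIndex, h2, Nat.card_congr e.toEquiv, Nat.card_eq_fintype_card, Fintype.card_perm]
      simp [Nat.factorial]
    obtain ⟨a, ha⟩ := IsPGroup.iff_card.mp hT.2.1
    rw [ha] at h1 ⊢
    by_contra h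
    have ha3 : a < 3 := by
      by_contra h3
      exact h (le_trans (by norm_num) (Nat.pow_le_pow_right (by norm_num : 0 < 2) (Nat.not_lt.mp h3)))
    have hodd := hT.2.2
    interval_cases a <;> (try simp only [pow_zero, pow_one, one_mul] at h1) <;> rw [Nat.odd_iff] at hodd <;> omega
  have hcS : centralizer ((V.subgroupOf (S : Subgroup Y) : Set ↥(S : Subgroup Y))) ≤ V.subgroupOf S := by
    intro y hy
    refine mem_subgroupOf.mpr (hcent (mem_centralizer_iff.mpr fun v hv => ?_))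
    exact congrArg Subtype.val (mem_centralizer_iff.mp hy ⟨v, hVS hv⟩ (mem_subgroupOf.mpr hv))
  refine ⟨?_, dihedral_or_quasiDihedral S.isPGroup' h8 (V.subgroupOf S)
    ((Nat.card_congr (subgroupOfEquivOfLe hVS).toEquiv).trans hVc)
    (fun a ha => Subtype.ext (hV2 _ (mem_subgroupOf.mp ha))) hcS⟩
  -- the centre is smaller than `V`
  have hΩ : omegaCenterOf (S : Subgroup Y) ≤ V := by
    intro w hw
    obtain ⟨-, hc, -⟩ := H74.JB.omega_mem hw
    exact hcent (mem_centralizer_iff.mpr fun v hv => hc v (hVS hv))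
  by_contra h
  push Not at h
  obtain ⟨a, ha⟩ := IsPGroup.iff_card.mp (hVp.to_le hΩ)
  have hd : Nat.card ↥(omegaCenterOf (S : Subgroup Y)) ∣ 4 := hVc ▸ card_dvd_of_le hΩ
  have h4 : Nat.card ↥(omegaCenterOf (S : Subgroup Y)) = 4 := by
    have := Nat.le_of_dvd (by norm_num) hd
    rw [ha] at h this ⊢
    have : a ≤ 2 := by
      by_contra h3
      have h8 : 2 ^ 3 ≤ 2 ^ a := Nat.pow_le_pow_right (by norm_num) (by omega)
      omega
    interval_cases a <;> omega
  have heq : omegaCenterOf (S : Subgroup Y) = V := eq_of_le_of_card_ge hΩ (by omega)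
  have hSV : (S : Subgroup Y) ≤ V := fun s hs => hcent (mem_centralizer_iff.mpr fun v hv =>
    ((H74.JB.omega_mem (heq.ge hv)).2.1 s hs).symm)
  have := card_le_of_le hSV
  omega

end Cfsg.Agent.H91.ZN
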