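import Cfsg.Agent.H91.ZN.Parabolic
import Cfsg.Agent.H74.JSecondBasic

/-!
Two parabolics `S₄ × C₂` with a common Sylow subgroup `T`.
-/

set_option autoImplicit false
set_option linter.style.haveILetI false

namespace Cfsg.Agent.H91.ZN

open Subgroup Cfsg

variable {Y : Type*} [Group Y] [Finite Y]

/-- Two frames on the same Sylow subgroup. -/
structure Twin (ι κ : D8C2 →* Y) (T P Q : Subgroup Y) : Prop where
  left : Frame ι T P
  right : Frame κ T Q
  other : κ dT = ι (dT * dZ)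
  sq : κ dZ = ι dZ
  second : ∃ a y, κ dW = ι y * ι (dX a) * (ι y)⁻¹

theorem exists_twin {T P Q : Subgroup Y} (hP : IsMaximalTwoLocal P) (hQ : IsMaximalTwoLocal Q)
    (hTP : IsSylowTwoIn T P) (hTQ : IsSylowTwoIn T Q) (hne : P ≠ Q) (e : ↥P ≃* S4C2) (e' : ↥Q ≃* S4C2) :
    ∃ ι κ, Twin ι κ T P Q := by
  obtain ⟨ι, hι⟩ := exists_frame hP hTP e
  obtain ⟨κ, hκ⟩ := exists_frame hQ hTQ e'
  have hsurj : ∀ x, ∃ y, ι y = κ x := fun x => hι.range.ge (hκ.range ▸ ⟨x, rfl⟩)
  have hsq : ∀ y, κ y * κ y ≠ 1 → κ y * κ y = ι dZ := by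
    intro y h
    obtain ⟨x, hx⟩ := hsurj y
    rw [← hx, ← map_mul] at h ⊢
    rcases D_sq x with h' | h'
    · exact absurd (by rw [h', map_one]) h
    · rw [h']
  have hz : κ dZ = ι dZ := by
    have h1 := hsq dR (by
      rw [← map_mul]
      exact fun h => absurd (hκ.inj (h.trans (map_one κ).symm)) (by decide))
    rwa [← map_mul, show dR * dR = dZ by decide] at h1
  have hother : κ dT = ι (dT * dZ) := by
    obtain ⟨u, hu⟩ := hsurj dT
    have huc : ∀ y, u * y = y * u := fun y => hι.inj (by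
      obtain ⟨x, hx⟩ : ∃ x, κ x = ι y := hκ.range.ge (hι.range ▸ ⟨y, rfl⟩)
      rw [map_mul, map_mul, hu, ← hx, ← map_mul, ← map_mul, D_central dT (Or.inr (Or.inl rfl))])
    rcases D_center u huc with h | h | h | h
    · exact absurd (hκ.inj (hu.symm.trans (by rw [h, map_one, map_one]))) (by decide)
    · exfalso
      refine hne (Subgroup.ext fun y => ?_)
      rw [hι.cent, hκ.cent, ← hu, h]
    · exfalso
      obtain ⟨x, hx⟩ : ∃ x, κ x = ι dR := hκ.range.ge (hι.range ▸ ⟨dR, rfl⟩)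
      refine T_not_sq x (hκ.inj ?_)
      rw [map_mul, hx, ← map_mul, show dR * dR = dZ by decide, ← h, hu]
    · rw [← hu, h]
  refine ⟨ι, κ, hι, hκ, hother, hz, ?_⟩
  obtain ⟨w, hw⟩ := hsurj dW
  have hw2 : w * w = 1 := hι.inj (by
    rw [map_mul, hw, ← map_mul, show dW * dW = (1 : D8C2) by decide, map_one, map_one])
  by_cases hin : inV w
  · exfalso
    have hnc : ¬ (w = 1 ∨ w = dT ∨ w = dZ ∨ w = dT * dZ) := by
      intro h
      have hc := D_central w h
      obtain ⟨x, hx⟩ := hsurj dR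
      have h1 : κ (dW * dR) = κ (dR * dW) := by rw [map_mul, map_mul, ← hw, ← hx, ← map_mul, ← map_mul, hc x]
      exact absurd (hκ.inj h1) (by decide)
    have hQP : Q ≤ P := by
      intro q hq
      -- `q` normalizes the centralizer of `κ dW`
      have key : ∀ v ∈ T, (v * κ dW = κ dW * v ↔ v * ι dW = ι dW * v) := by
        intro v hv
        obtain ⟨u, rfl⟩ := hι.range.ge hv
        rw [← hw, ← map_mul, ← map_mul, ← map_mul, ← map_mul, hι.inj.eq_iff, hι.inj.eq_iff]
        exact inV_cent_eq w u hw2 hin hnc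
      refine hι.norm q fun x hx hxc => ?_
      obtain ⟨h1, h2⟩ := hκ.stab q hq x hx ((key x hx).mpr hxc)
      exact ⟨h1, (key _ h1).mp h2⟩
    exact hne (hQ.2 P hP.1 hQP)
  · obtain ⟨a, y, hy⟩ := not_inV_involution w hw2 hin
    refine ⟨a, y⁻¹, ?_⟩
    rw [← hw, ← hy, ← map_inv, ← map_mul, ← map_mul]
    congr 1
    group

end Cfsg.Agent.H91.ZN
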